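import Cfsg.Agent.H609.TH.Excl
import Cfsg.Agent.OrdDiv.Table
import Cfsg.Agent.H981.SCON
import Cfsg.Agent.H248.SK.ONOut
import Cfsg.Agent.CpAut.SporThree.ON
import Cfsg.Agent.CpAutON.Seven
import Cfsg.Agent.SevenCases.TabFin

/-!
# S3938: the O'Nan group (helper446)

`r = 31`: the elements of order 31 are self-centralising; a 2-subgroup normalised by one of them would be elementary abelian
of order 32, but the 2-rank is 3; the simple groups at the top of a proper overgroup are `L₂(31)` (and `L₂(32)`, excluded by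
the order of the normaliser), at most 12 of them contain a given element of order 31 (`|C(a)| ≤ 180` for `a` of order 15).
Inner automorphisms: `|C(g)| ≤ 1111320` for `g` of prime order.  The outer involutions are conjugate to `bt`, and
`⟨x, bt x⟩ = ON` for an explicit `x` of order 31: this group contains an element of order 19.
-/

set_option autoImplicit false
set_option maxRecDepth 100000

namespace Cfsg.Agent.H446.SprON

open Subgroup Cfsg Cfsg.Agent.OrdDiv Cfsg.Agent.H257.El Cfsg.Agent.H609.TH Cfsg.Agent.H424.Spr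
open Cfsg.Spor (ON)
open Cfsg.Spor.ON (Gen)
open Cfsg.Agent.KFacts.ON.Cent (hON finite_ON)
open Cfsg.Agent.KFacts.ON.OneClass (hs card_ON mem_K0)
open Cfsg.Agent.ONType.TupK (K0)
open Cfsg.Agent.SporadicB.ON45Word (on LW)
open Cfsg.Agent.SporadicB.ON45Data (C45)
open Cfsg.Agent.Lib.PackMat (checkScalar)
open Cfsg.Agent.KFacts.MulSpor.ON (w mats)
open Cfsg.Agent.UGT.C.BalON (bt btw bt_word)

/-- the factorisation of the order -/
def l : List (ℕ × ℕ) := [(2, 9), (3, 4), (5, 1), (7, 3), (11, 1), (19, 1), (31, 1)]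

theorem chk : chkN 460815505920 l 31 = true := by decide +kernel

theorem ok : ∀ x ∈ l, x.1 ≠ 31 → x.1 ≠ 2 → okPow l 31 x.1 = true := by decide +kernel

theorem hsurv : ∀ g ∈ surv 460815505920 l 31 [], g = Grp.psl 2 31 ∨ g = Grp.psl 2 32 := by decide +kernel

theorem sc : Cfsg.Agent.H537.Cop.SC 31 ON := Cfsg.Agent.H981.SCON.sc_on

/-! ### No 2-subgroup is normalised by an element of order 31 -/

theorem card_two {y : ON} (hy : orderOf y = 31) {R : Subgroup ON} (hR : IsPGroup 2 R)
    (hyR : y ∈ normalizer (R : Set ON)) (hne : R ≠ ⊥) : Nat.card R = 32 := by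
  have := finite_ON
  have h2 : Fact (Nat.Prime 2) := ⟨Nat.prime_two⟩
  obtain ⟨b, hb⟩ := IsPGroup.iff_card.1 hR
  have hd : 2 ^ b ∣ 460815505920 := by
    rw [← hb, ← card_ON]
    exact card_subgroup_dvd_card R
  have hb9 : b ≤ 9 := by
    by_contra hcon
    have h3 : 2 ^ 10 ∣ 460815505920 := (pow_dvd_pow 2 (by omega)).trans hd
    norm_num at h3
  have hb0 : b ≠ 0 := by
    rintro rfl
    rw [pow_zero] at hb
    exact hne (card_eq_one.1 hb)
  by_cases h1 : 2 ^ b % 31 = 1
  · rw [hb]
    interval_cases b <;> first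
      | exact absurd rfl hb0
      | (exfalso; revert h1; norm_num; done)
      | norm_num
  · exfalso
    obtain ⟨z, -, hz, hyz⟩ := exists_comm_of_normalizer (by norm_num : Nat.Prime 31) Nat.prime_two hy hR hyR (by
      rw [hb]; exact h1)
    exact noOrd_of_cent (by norm_num : Nat.Prime 31) sc Nat.prime_two (by norm_num) _
      (orderOf_mul_of_comm (by norm_num : Nat.Prime 31) Nat.prime_two (by norm_num) hy hz hyz)

theorem bot_two {y : ON} (hy : orderOf y = 31) {R : Subgroup ON} (hR : IsPGroup 2 R)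
    (hyR : y ∈ normalizer (R : Set ON)) : R = ⊥ := by
  have := finite_ON
  have h2 : Fact (Nat.Prime 2) := ⟨Nat.prime_two⟩
  by_contra hne
  have hnt : Nontrivial R := (nontrivial_iff_ne_bot R).2 hne
  -- the involutions of the centre
  let W : Subgroup ON :=
    { carrier := {z | z ∈ R ∧ (∀ u ∈ R, z * u = u * z) ∧ z * z = 1}
      one_mem' := ⟨one_mem R, fun u _ => by rw [one_mul, mul_one], one_mul 1⟩
      mul_mem' := by
        rintro a b ⟨ha, ha1, ha2⟩ ⟨hb, hb1, hb2⟩
        refine ⟨mul_mem ha hb, fun u hu => ?_, ?_⟩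
        · rw [mul_assoc, hb1 u hu, ← mul_assoc, ha1 u hu, mul_assoc]
        · calc a * b * (a * b) = a * (b * a) * b := by group
            _ = a * (a * b) * b := by rw [hb1 a ha]
            _ = (a * a) * (b * b) := by group
            _ = 1 := by rw [ha2, hb2, one_mul]
      inv_mem' := by
        rintro a ⟨ha, ha1, ha2⟩
        have h3 : a⁻¹ = a := inv_eq_of_mul_eq_one_left ha2
        rw [h3]
        exact ⟨ha, ha1, ha2⟩ }
  have hW : ∀ {z : ON}, z ∈ W ↔ z ∈ R ∧ (∀ u ∈ R, z * u = u * z) ∧ z * z = 1 := Iff.rfl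
  have hWR : W ≤ R := fun z hz => (hW.1 hz).1
  have hWp : IsPGroup 2 W := hR.to_le hWR
  have key : ∀ y : ON, y ∈ normalizer (R : Set ON) → ∀ z ∈ W, y * z * y⁻¹ ∈ W := by
    intro y hy z hz
    obtain ⟨h3, h4, h5⟩ := hW.1 hz
    refine hW.2 ⟨(mem_normalizer_iff.1 hy z).1 h3, fun u hu => ?_, ?_⟩
    · have h6 : y⁻¹ * u * y ∈ R := (mem_normalizer_iff.1 hy _).2 (by
        have : y * (y⁻¹ * u * y) * y⁻¹ = u := by group
        rwa [this])
      calc y * z * y⁻¹ * u = y * (z * (y⁻¹ * u * y)) * y⁻¹ := by group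
        _ = y * ((y⁻¹ * u * y) * z) * y⁻¹ := by rw [h4 _ h6]
        _ = u * (y * z * y⁻¹) := by group
    · calc y * z * y⁻¹ * (y * z * y⁻¹) = y * (z * z) * y⁻¹ := by group
        _ = 1 := by rw [h5]; group
  have hyW : y ∈ normalizer (W : Set ON) := by
    rw [mem_normalizer_iff]
    intro z
    refine ⟨key y hyR z, fun h => ?_⟩
    have h3 := key y⁻¹ (inv_mem hyR) _ h
    have h4 : y⁻¹ * (y * z * y⁻¹) * y⁻¹⁻¹ = z := by group
    rwa [h4] at h3
  have hWne : W ≠ ⊥ := by
    have hZ : Nontrivial ↥(center ↥R) := hR.center_nontrivial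
    have hZp : IsPGroup 2 ↥(center ↥R) := hR.to_subgroup _
    obtain ⟨m, hm, hm'⟩ := hZp.nontrivial_iff_card.1 hZ
    obtain ⟨z, hz⟩ := exists_prime_orderOf_dvd_card' 2 (show 2 ∣ Nat.card ↥(center ↥R) by
      rw [hm']; exact dvd_pow_self 2 hm.ne')
    intro hbot
    have hzz : z * z = 1 := by rw [← pow_two, ← hz, pow_orderOf_eq_one]
    have h3 : ((z : R) : ON) ∈ W := by
      refine hW.2 ⟨(z : R).2, fun u hu => ?_, ?_⟩
      · have h4 := mem_center_iff.1 z.2 ⟨u, hu⟩
        exact (congrArg Subtype.val h4).symm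
      · exact congrArg (fun t : ↥(center ↥R) => ((t : R) : ON)) hzz
    rw [hbot, mem_bot] at h3
    have h4 : z = 1 := Subtype.ext (Subtype.ext h3)
    rw [h4, orderOf_one] at hz
    norm_num at hz
  have h32 := card_two hy hWp hyW hWne
  have h8 := Cfsg.Agent.SevenLow.ONan.low (⟨MulEquiv.refl ON⟩ : Spor.IsoON ON) W
    ⟨⟨fun a b => Subtype.ext ((hW.1 a.2).2.1 b (hWR b.2))⟩⟩ (fun a ha => by rw [pow_two]; exact (hW.1 ha).2.2)
  rw [h32] at h8
  norm_num at h8

theorem free31 : Free 31 ON := by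
  have := finite_ON
  have hv : valid l 460815505920 = true := (of_chkN chk).1
  intro y hy q hq hqr R hR hyR
  by_cases hq2 : q = 2
  · subst hq2
    exact bot_two hy hR hyR
  have hq' : Fact q.Prime := ⟨hq⟩
  by_cases hqn : q ∣ 460815505920
  · obtain ⟨k, hk, -⟩ := exists_pair hv hq le_rfl (by rwa [pow_one])
    exact bot_of_okPow card_ON hv (by norm_num) sc hy hq hqr (ok (q, k) hk hqr hq2) hR hyR
  · obtain ⟨b, hb⟩ := IsPGroup.iff_card.1 hR
    rcases Nat.eq_zero_or_pos b with rfl | hb0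
    · rw [pow_zero] at hb
      exact card_eq_one.1 hb
    · exfalso
      apply hqn
      rw [← card_ON]
      refine dvd_trans ?_ (card_subgroup_dvd_card R)
      rw [hb]
      exact dvd_pow_self q hb0.ne'

/-! ### The centralizers of the elements of prime order -/

theorem not_dvd_of {x : ON} {r q : ℕ} (hx : orderOf x = r) (hq : q.Prime) {m : ℕ}
    (hm : ∀ y : ON, orderOf y = q → Nat.card ↥(centralizer ({y} : Set ON)) = m) (hr : ¬ r ∣ m) :
    ¬ q ∣ Nat.card ↥(centralizer ({x} : Set ON)) := by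
  have := finite_ON
  intro h
  obtain ⟨y, hy, hyx⟩ := H474.ONC.exists_comm hq h
  have h1 := H474.ONC.dvd_cent hyx.symm
  rw [hm y hy, hx] at h1
  exact hr h1

theorem le_of_not_dvd {c : ℕ} (h : c ∣ 460815505920) (h11 : ¬ 11 ∣ c) (h19 : ¬ 19 ∣ c) (h31 : ¬ 31 ∣ c)
    (h16 : ¬ 2 ^ 4 ∣ c) : c ≤ 1111320 := by
  have e : 460815505920 = 11 * (19 * (31 * (2 ^ 9 * 138915))) := by norm_num
  rw [e] at h
  have h1 : c ∣ 2 ^ 9 * 138915 := by
    refine Nat.Coprime.dvd_of_dvd_mul_left ?_ (Nat.Coprime.dvd_of_dvd_mul_left ?_ (Nat.Coprime.dvd_of_dvd_mul_left ?_ h))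
    · exact ((Nat.Prime.coprime_iff_not_dvd (by norm_num)).2 h31).symm
    · exact ((Nat.Prime.coprime_iff_not_dvd (by norm_num)).2 h19).symm
    · exact ((Nat.Prime.coprime_iff_not_dvd (by norm_num)).2 h11).symm
  obtain ⟨a, b, ha, hb, rfl⟩ := (Nat.dvd_mul).1 h1
  obtain ⟨i, -, rfl⟩ := (Nat.dvd_prime_pow Nat.prime_two).1 ha
  have hi : i < 4 := by
    by_contra hcon
    exact h16 (Dvd.dvd.mul_right (pow_dvd_pow 2 (by omega)) _)
  have hb' : b ≤ 138915 := Nat.le_of_dvd (by norm_num) hb
  have h2 : 2 ^ i ≤ 2 ^ 3 := Nat.pow_le_pow_right (by norm_num) (by omega)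
  calc 2 ^ i * b ≤ 2 ^ 3 * 138915 := Nat.mul_le_mul h2 hb'
    _ = 1111320 := by norm_num

/-- elements of order 7 -/
theorem not_8 {x : ON} (hx : orderOf x = 7) : ¬ 2 ^ 3 ∣ Nat.card ↥(centralizer ({x} : Set ON)) := by
  intro h
  have hfin : Finite ON := finite_ON
  obtain ⟨z, hz, hzx, T, hT, hTx, hTz⟩ := CpAut.SporThree.Cent.exists_inv (k := 3) (by norm_num) h
  obtain ⟨g, hg⟩ := CpAut.SporThree.ON.f_conj hz
  have hx7 : x ^ 7 = 1 := by rw [← hx, pow_orderOf_eq_one]
  have hx1 : x ≠ 1 := by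
    rintro rfl
    rw [orderOf_one] at hx
    omega
  have hc : ∀ {a b : ON}, a * b = b * a → (g * a * g⁻¹) * (g * b * g⁻¹) = (g * b * g⁻¹) * (g * a * g⁻¹) := by
    intro a b hab
    calc (g * a * g⁻¹) * (g * b * g⁻¹) = g * (a * b) * g⁻¹ := by group
      _ = g * (b * a) * g⁻¹ := by rw [hab]
      _ = _ := by group
  have hle : T.map (MulAut.conj g).toMonoidHom ≤ zpowers Cfsg.Agent.KFacts.ON.Words.v := by
    rintro _ ⟨t, ht, rfl⟩
    have ht8 : t ^ 2 ^ 3 = 1 := by
      have h1 := pow_card_eq_one' (x := (⟨t, ht⟩ : T))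
      rw [hT] at h1
      exact congrArg Subtype.val h1
    refine CpAutON.Seven.two_K0 (x := g * x * g⁻¹) (t := g * t * g⁻¹) (n := 3) ?_ ?_ ?_ ?_ ?_ ?_
    · rw [conj_pow, hx7, mul_one, mul_inv_cancel]
    · intro h
      apply hx1
      have h2 : x = g⁻¹ * (g * x * g⁻¹) * g := by group
      rw [h2, h]
      group
    · exact mem_K0.2 (by rw [← hg]; exact hc hzx.symm)
    · exact mem_K0.2 (by rw [← hg]; exact hc (hTz t ht))
    · exact hc (hTx t ht)
    · rw [conj_pow, ht8, mul_one, mul_inv_cancel]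
  have h1 := card_le_of_le hle
  rw [card_map_of_injective (MulAut.conj g).injective, hT, Nat.card_zpowers, H296.ONCore.orderOf_v] at h1
  norm_num at h1

theorem card_cent_le (x : ON) (hx : (orderOf x).Prime) : Nat.card ↥(centralizer ({x} : Set ON)) ≤ 1111320 := by
  have := finite_ON
  have h1 : orderOf x ∣ 2 ^ 9 * 3 ^ 4 * 5 * 7 ^ 3 * 11 * 19 * 31 := by
    have e : 2 ^ 9 * 3 ^ 4 * 5 * 7 ^ 3 * 11 * 19 * 31 = 460815505920 := by norm_num
    rw [e, ← card_ON]
    exact orderOf_dvd_natCard x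
  have key : ∀ {q k : ℕ}, q.Prime → orderOf x ∣ q ^ k → orderOf x = q := fun hq h =>
    (Nat.prime_dvd_prime_iff_eq hx hq).1 (hx.dvd_of_dvd_pow h)
  have key1 : ∀ {q : ℕ}, q.Prime → orderOf x ∣ q → orderOf x = q := fun hq h => (Nat.prime_dvd_prime_iff_eq hx hq).1 h
  have h11 : ∀ {r : ℕ}, orderOf x = r → ¬ r ∣ 11 → ¬ 11 ∣ Nat.card ↥(centralizer ({x} : Set ON)) := fun h hr =>
    not_dvd_of h (by norm_num) (fun y hy => H474.ONC.card_cent_eleven hy) hr
  have h19 : ∀ {r : ℕ}, orderOf x = r → ¬ r ∣ 19 → ¬ 19 ∣ Nat.card ↥(centralizer ({x} : Set ON)) := fun h hr =>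
    not_dvd_of h (by norm_num) (fun y hy => H981.SCON.card_cent_nineteen hy) hr
  have h31 : ∀ {r : ℕ}, orderOf x = r → ¬ r ∣ 31 → ¬ 31 ∣ Nat.card ↥(centralizer ({x} : Set ON)) := fun h hr =>
    not_dvd_of h (by norm_num) (fun y hy => sc y hy) hr
  rcases hx.dvd_mul.1 h1 with h1 | h1
  · rcases hx.dvd_mul.1 h1 with h1 | h1
    · rcases hx.dvd_mul.1 h1 with h1 | h1
      · rcases hx.dvd_mul.1 h1 with h1 | h1
        · rcases hx.dvd_mul.1 h1 with h1 | h1
          · rcases hx.dvd_mul.1 h1 with h1 | h1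
            · have h3 := key Nat.prime_two h1
              obtain ⟨g, hg⟩ := CpAut.SporThree.ON.f_conj h3
              rw [← CpAut.SporThree.Cent.card_centralizer_conj g x, hg, KFacts.ON.Cent.card_cent]
              norm_num
            · have h3 := key Nat.prime_three h1
              exact le_of_not_dvd (H474.ONC.cent_dvd x) (h11 h3 (by norm_num)) (h19 h3 (by norm_num))
                (h31 h3 (by norm_num)) (by simpa using CpAut.SporThree.ON.not_16 h3)
          · have h3 := key1 (by norm_num) h1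
            rw [H474.ONC.card_cent_five h3]
            norm_num
        · have h3 := key (by norm_num) h1
          exact le_of_not_dvd (H474.ONC.cent_dvd x) (h11 h3 (by norm_num)) (h19 h3 (by norm_num))
            (h31 h3 (by norm_num)) (fun h => not_8 h3 ((pow_dvd_pow 2 (by norm_num)).trans h))
      · have h3 := key1 (by norm_num) h1
        rw [H474.ONC.card_cent_eleven h3]
        norm_num
    · have h3 := key1 (by norm_num) h1
      rw [H981.SCON.card_cent_nineteen h3]
      norm_num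
  · have h3 := key1 (by norm_num) h1
    rw [sc x h3]
    norm_num

/-- the centralizers of the elements of order 15 -/
theorem cent15 {a : ON} (ha : orderOf a = 15) : Nat.card ↥(centralizer ({a} : Set ON)) ≤ 180 := by
  have := finite_ON
  have h1 : orderOf (a ^ 3) = 5 := by
    rw [orderOf_pow_of_dvd (by norm_num) (by rw [ha]; norm_num), ha]
  rw [← H474.ONC.card_cent_five h1]
  refine Nat.le_of_dvd Nat.card_pos (card_dvd_of_le ?_)
  intro x hx
  rw [mem_centralizer_singleton_iff] at hx ⊢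
  exact (Commute.pow_right (show Commute x a from hx) 3).eq

/-! ### The tops -/

theorem hL {s : ON} (hs : orderOf s = 31) (K N : Subgroup ON) (hN : IsTop ON 460815505920 l 31 s K N) :
    IsLTwo 31 s N := by
  have := finite_ON
  obtain ⟨g, hg, hgr, hgc⟩ := hN.real
  rcases hsurv g hg with rfl | rfl
  · exact ⟨hN.mem, hgr⟩
  · exfalso
    have h := (IsTop.index_mul_dvd (by norm_num) (by rw [card_ON]; norm_num) (by rw [card_ON]; norm_num) sc hs hN).2
    have e : (ordN (Grp.psl 2 32) / 31) % 31 = 2 := by decide +kernel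
    rw [hgc, e, card_ON] at h
    have h2 : 2 ∣ 460815505920 / 31 % 31 := dvd_of_mul_left_dvd h
    norm_num at h2

/-! ### The outer involutions -/

/-- the word of the element of order 31 -/
def xw : List Gen := [.c, .e, .d, .g, .b]

/-- the word of the element of order 19 -/
def yw : List Gen := xw ++ (btw xw ++ (btw xw ++ btw xw))

theorem w_eq (m : List Gen) : w m = (m.map on).prod := rfl

theorem x31 : orderOf (w xw) = 31 := by
  have : Fact (Nat.Prime 31) := ⟨by norm_num⟩
  refine orderOf_eq_prime ?_ ?_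
  · exact ((LW.word xw).pow 31).eq_one hs 1 (by decide) (by decide +kernel)
  · exact KFacts.ON.Aut.ne_w xw [] (by decide +kernel)

theorem y19 : orderOf (w yw) = 19 := by
  have : Fact (Nat.Prime 19) := ⟨by norm_num⟩
  refine orderOf_eq_prime ?_ ?_
  · exact ((LW.word yw).pow 19).eq_one hs 2 (by decide) (by decide +kernel)
  · exact KFacts.ON.Aut.ne_w yw [] (by decide +kernel)

theorem yw_eq : w yw = w xw * (bt hON (w xw) * (bt hON (w xw) * bt hON (w xw))) := by
  have h1 : bt hON (w xw) = w (btw xw) := bt_word hON xw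
  rw [h1]
  simp only [w_eq, yw, List.map_append, List.prod_append]

theorem gen_top (known : Known.{0}) : closure ({w xw, bt hON (w xw)} : Set ON) = ⊤ := by
  have := finite_ON
  by_contra hK
  set K := closure ({w xw, bt hON (w xw)} : Set ON) with hKdef
  have hx : w xw ∈ K := Subgroup.subset_closure (Or.inl rfl)
  have hbx : bt hON (w xw) ∈ K := Subgroup.subset_closure (Or.inr rfl)
  have hy : w yw ∈ K := by
    rw [yw_eq]
    exact mul_mem hx (mul_mem hbx (mul_mem hbx hbx))
  have h19 : 19 ∣ Nat.card K := by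
    have := Subgroup.orderOf_dvd_natCard K hy
    rwa [y19] at this
  obtain ⟨hv, -, -, h2, hne⟩ := of_chkN chk
  have h2' : ¬ 31 ^ 2 ∣ Nat.card ON := by rwa [card_ON]
  have hne' : Nat.card ON ≠ 31 := by rwa [card_ON]
  rcases cases Cfsg.Agent.OrdDiv.table known card_ON hv (by norm_num) h2 free31 x31 hK hx with h | ⟨N, hN⟩
  · have h3 := h19.trans (card_dvd_of_le h)
    rw [(card_norm_mod (by norm_num) h2' hne' (sc _ x31)).1, card_ON] at h3
    norm_num at h3
  · obtain ⟨g, hg, hgr, hgc⟩ := hN.real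
    have h3 := h19.trans (IsTop.index_mul_dvd (by norm_num) h2' hne' sc x31 hN).1
    rw [card_ON, hgc] at h3
    rcases hsurv g hg with rfl | rfl
    · revert h3
      decide +kernel
    · revert h3
      decide +kernel

theorem goodA_outer (known : Known.{0}) {σ : MulAut ON} (hσσ : σ * σ = 1) (hout : ∀ x, σ ≠ MulAut.conj x) :
    GoodA σ := by
  obtain ⟨y, hy⟩ := H248.SK.ONOut.exists_bt hσσ hout
  refine GoodA.of_conj (MulAut.conj y⁻¹) ?_
  have h1 : MulAut.conj y⁻¹ * σ * (MulAut.conj y⁻¹)⁻¹ = bt hON := by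
    apply MulEquiv.ext
    intro z
    have h2 : (MulAut.conj y⁻¹)⁻¹ = MulAut.conj y := by rw [← map_inv, inv_inv]
    rw [h2]
    show y⁻¹ * σ (y * z * y⁻¹) * y⁻¹⁻¹ = bt hON z
    rw [hy]
    have h3 : y⁻¹ * (y * z * y⁻¹) * y = z := by group
    rw [h3]
    group
  rw [h1]
  exact goodA_of_pair (gen_top known)

/-! ### The row -/

theorem conj_injective : Function.Injective (MulAut.conj : ON →* MulAut ON) := by
  rw [injective_iff_map_eq_one]
  intro z hz
  have hz' : z ∈ center ON := by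
    rw [mem_center_iff]
    intro y
    have h1 : MulAut.conj z y = y := by rw [hz]; rfl
    rw [MulAut.conj_apply] at h1
    calc y * z = z * y * z⁻¹ * z := by rw [h1]
      _ = z * y := by group
  rw [CpAutON.Seven.center_bot, mem_bot] at hz'
  exact hz'

theorem spr_H (known : Known.{0}) : Spr ON := by
  have := finite_ON
  obtain ⟨hv, hr3, hrn, h2, hne⟩ := of_chkN chk
  refine spr_of_prime fun a ha => ?_
  by_cases hinn : ∃ g : ON, a = MulAut.conj g
  · obtain ⟨g, rfl⟩ := hinn
    refine goodA_of_ltwo' (c := 12) Cfsg.Agent.OrdDiv.table known card_ON hv (by norm_num) hr3 h2 free31 sc x31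
      (fun K N _ hN => hL x31 K N hN) (fun a t ha _ => (cent15 ha).trans (by norm_num)) _ ?_
    have hg : orderOf g = orderOf (MulAut.conj g) := (orderOf_injective _ conj_injective g).symm
    have h1 := card_cent_le g (by rw [hg]; exact ha)
    have h3 : Nat.card {x : ON // MulAut.conj g x = x} = Nat.card ↥(centralizer ({g} : Set ON)) := by
      refine Nat.card_congr (Equiv.subtypeEquivRight fun x => ?_)
      rw [mem_centralizer_singleton_iff, MulAut.conj_apply]
      constructor
      · intro h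
        calc x * g = g * x * g⁻¹ * g := by rw [h]
          _ = g * x := by group
      · intro h
        rw [← h]
        group
    rw [h3]
    exact lt_of_le_of_lt (Nat.mul_le_mul_left _ h1) (by norm_num)
  · refine goodA_outer known ?_ (fun x hx => hinn ⟨x, hx⟩)
    have h3 : orderOf a = 2 := by
      by_contra hne2
      obtain ⟨g, hg⟩ := CpAutON.Seven.autInner ha hne2 a rfl
      exact hinn ⟨g, hg⟩
    rw [← pow_two, ← h3, pow_orderOf_eq_one]

/-- **The O'Nan group.** -/
theorem spr_on (known : Cfsg.Agent.H257.El.Known.{0}) {T : Type} [Group T] [Finite T] (h : Spor.IsoON T) :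
    Cfsg.Agent.H424.Spr.Spr T := by
  obtain ⟨e⟩ := h
  exact Spr.congr e.symm (spr_H known)

end Cfsg.Agent.H446.SprON
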