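import Mathlib

/-!
# A `2`-group of automorphisms of a nilpotent group `Q` of odd order has order at most `|Q|²`

`two_group_card_le`.  Induction on `|Q|`; the base case uses the order of `GL_n(p)`.
-/

set_option autoImplicit false
set_option linter.style.haveILetI false

namespace Cfsg.Agent.H446.TwoAutNil

open Finset

universe u

/-! ## Arithmetic -/

section arith

theorem v_odd {p : ℕ} (hp : 3 ≤ p) (hodd : Odd p) {n : ℕ} (hn : Odd n) :
    padicValNat 2 (p ^ n - 1) = padicValNat 2 (p - 1) := by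
  obtain ⟨x, rfl⟩ : ∃ x, p = x + 1 := ⟨p - 1, by omega⟩
  have h := geom_sum_mul_add x n
  have h1 : (x + 1) ^ n - 1 = (∑ i ∈ range n, (x + 1) ^ i) * x := by omega
  have hS : Odd (∑ i ∈ range n, (x + 1) ^ i) := by
    rw [Finset.odd_sum_iff_odd_card_odd]
    have : (range n).filter (fun i => Odd ((x + 1) ^ i)) = range n := by
      apply Finset.filter_true_of_mem
      intro i _
      exact hodd.pow
    rw [this, card_range]
    exact hn
  have hS0 : (∑ i ∈ range n, (x + 1) ^ i) ≠ 0 := by
    intro h0; rw [h0] at hS; exact absurd hS (by decide)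
  rw [h1, padicValNat.mul hS0 (by omega), Nat.add_sub_cancel]
  have : padicValNat 2 (∑ i ∈ range n, (x + 1) ^ i) = 0 := by
    apply padicValNat.eq_zero_of_not_dvd
    intro hd
    exact (Nat.not_even_iff_odd.2 hS) (even_iff_two_dvd.2 hd)
  omega

theorem v_even {p : ℕ} (hp : 3 ≤ p) (hodd : Odd p) {n : ℕ} (hn : n ≠ 0) (hne : Even n) :
    padicValNat 2 (p ^ n - 1) + 1 = padicValNat 2 (p + 1) + padicValNat 2 (p - 1) + padicValNat 2 n := by
  obtain ⟨k, hk⟩ := hodd
  have := padicValNat.pow_two_sub_pow (x := p) (y := 1) (by omega) (by omega) (by omega) hn hne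
  rwa [one_pow] at this

/-- `∏_{j=1}^{n} (p^j - 1)`. -/
def F (p n : ℕ) : ℕ := ∏ j ∈ range n, (p ^ (j + 1) - 1)

theorem F_ne_zero {p : ℕ} (hp : 3 ≤ p) (n : ℕ) : F p n ≠ 0 := by
  unfold F
  rw [Finset.prod_ne_zero_iff]
  intro j _
  have : 3 ^ 1 ≤ p ^ (j + 1) := le_trans (Nat.pow_le_pow_left hp 1)
    (Nat.pow_le_pow_right (by omega) (by omega))
  omega

theorem F_succ (p n : ℕ) : F p (n + 1) = F p n * (p ^ (n + 1) - 1) := by
  unfold F; rw [prod_range_succ]

theorem pow_sub_ne {p : ℕ} (hp : 3 ≤ p) (j : ℕ) : p ^ (j + 1) - 1 ≠ 0 := by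
  have : 3 ^ 1 ≤ p ^ (j + 1) := le_trans (Nat.pow_le_pow_left hp 1)
    (Nat.pow_le_pow_right (by omega) (by omega))
  omega

theorem v_F {p : ℕ} (hp : 3 ≤ p) (hodd : Odd p) (l : ℕ) :
    padicValNat 2 (F p (2 * l)) =
      l * (2 * padicValNat 2 (p - 1) + padicValNat 2 (p + 1)) + padicValNat 2 l.factorial := by
  induction l with
  | zero => simp [F]
  | succ l ih =>
    have h1 : 2 * (l + 1) = 2 * l + 1 + 1 := by ring
    rw [h1, F_succ, F_succ, padicValNat.mul (mul_ne_zero (F_ne_zero hp _) (pow_sub_ne hp _))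
      (pow_sub_ne hp _), padicValNat.mul (F_ne_zero hp _) (pow_sub_ne hp _), ih,
      v_odd hp hodd (n := 2 * l + 1) ⟨l, rfl⟩]
    have h2 := v_even hp hodd (n := 2 * l + 1 + 1) (by omega) ⟨l + 1, by ring⟩
    have h3 : padicValNat 2 (2 * l + 1 + 1) = 1 + padicValNat 2 (l + 1) := by
      rw [show 2 * l + 1 + 1 = 2 * (l + 1) by ring, padicValNat.mul (by norm_num) (by omega),
        padicValNat_self]
    have h4 : padicValNat 2 (l + 1).factorial = padicValNat 2 (l + 1) + padicValNat 2 l.factorial := by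
      rw [Nat.factorial_succ, padicValNat.mul (by omega) (Nat.factorial_ne_zero l)]
    have h5 : (l + 1) * (2 * padicValNat 2 (p - 1) + padicValNat 2 (p + 1)) =
      l * (2 * padicValNat 2 (p - 1) + padicValNat 2 (p + 1)) +
        (2 * padicValNat 2 (p - 1) + padicValNat 2 (p + 1)) := by ring
    omega

theorem two_pow_v_le {m : ℕ} (hm : m ≠ 0) : 2 ^ padicValNat 2 m ≤ m :=
  Nat.le_of_dvd (Nat.pos_of_ne_zero hm) pow_padicValNat_dvd

theorem bound_even {p : ℕ} (hp : 3 ≤ p) (hodd : Odd p) (l : ℕ) :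
    2 ^ padicValNat 2 (F p (2 * l)) ≤ (p ^ 4) ^ l := by
  have h1 : padicValNat 2 (F p (2 * l)) ≤
      (2 * padicValNat 2 (p - 1) + padicValNat 2 (p + 1) + 1) * l := by
    rw [v_F hp hodd]
    have := padicValNat_factorial_le (p := 2) l
    have h5 : (2 * padicValNat 2 (p - 1) + padicValNat 2 (p + 1) + 1) * l =
      l * (2 * padicValNat 2 (p - 1) + padicValNat 2 (p + 1)) + l := by ring
    omega
  calc 2 ^ padicValNat 2 (F p (2 * l))
      ≤ 2 ^ ((2 * padicValNat 2 (p - 1) + padicValNat 2 (p + 1) + 1) * l) :=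
        Nat.pow_le_pow_right (by norm_num) h1
    _ = (2 ^ (2 * padicValNat 2 (p - 1) + padicValNat 2 (p + 1) + 1)) ^ l := by rw [pow_mul]
    _ ≤ (p ^ 4) ^ l := by
        apply Nat.pow_le_pow_left
        have ha := two_pow_v_le (m := p - 1) (by omega)
        have hb := two_pow_v_le (m := p + 1) (by omega)
        have h0 : 2 ^ (2 * padicValNat 2 (p - 1) + padicValNat 2 (p + 1) + 1) =
          2 ^ padicValNat 2 (p - 1) * 2 ^ padicValNat 2 (p - 1) * 2 ^ padicValNat 2 (p + 1) * 2 := by
          ring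
        rw [h0]
        calc 2 ^ padicValNat 2 (p - 1) * 2 ^ padicValNat 2 (p - 1) * 2 ^ padicValNat 2 (p + 1) * 2
            ≤ (p - 1) * (p - 1) * (p + 1) * 2 := by gcongr
          _ ≤ p * p * (p + 1) * 2 := by gcongr <;> omega
          _ = (p * p) * (2 * (p + 1)) := by ring
          _ ≤ (p * p) * (p * p) := Nat.mul_le_mul_left _ (by nlinarith)
          _ = p ^ 4 := by ring

theorem bound {p : ℕ} (hp : 3 ≤ p) (hodd : Odd p) (n : ℕ) :
    2 ^ padicValNat 2 (F p n) ≤ (p ^ n) ^ 2 := by
  rcases Nat.even_or_odd' n with ⟨l, rfl | rfl⟩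
  · refine (bound_even hp hodd l).trans (le_of_eq ?_)
    rw [← pow_mul, ← pow_mul]; congr 1; ring
  · rw [F_succ, padicValNat.mul (F_ne_zero hp _) (pow_sub_ne hp _), v_odd hp hodd ⟨l, rfl⟩, pow_add]
    calc 2 ^ padicValNat 2 (F p (2 * l)) * 2 ^ padicValNat 2 (p - 1)
        ≤ (p ^ 4) ^ l * p ^ 2 := by
          apply Nat.mul_le_mul (bound_even hp hodd l)
          refine (two_pow_v_le (m := p - 1) (by omega)).trans ?_
          nlinarith [Nat.sub_le p 1]
      _ = (p ^ (2 * l + 1)) ^ 2 := by rw [← pow_mul, ← pow_mul, ← pow_add]; congr 1; ring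

theorem v_prod {ι : Type*} (s : Finset ι) (f : ι → ℕ) (hf : ∀ i ∈ s, f i ≠ 0) :
    padicValNat 2 (∏ i ∈ s, f i) = ∑ i ∈ s, padicValNat 2 (f i) := by
  classical
  induction s using Finset.induction_on with
  | empty => simp
  | insert a t ha ih =>
    rw [Finset.prod_insert ha, Finset.sum_insert ha,
      padicValNat.mul (hf a (Finset.mem_insert_self a t))
        (Finset.prod_ne_zero_iff.2 fun i hi => hf i (Finset.mem_insert_of_mem hi)),
      ih fun i hi => hf i (Finset.mem_insert_of_mem hi)]

theorem v_GL {p : ℕ} (hp : 3 ≤ p) (hodd : Odd p) (n : ℕ) :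
    padicValNat 2 (∏ i : Fin n, (p ^ n - p ^ (i : ℕ))) = padicValNat 2 (F p n) := by
  have hne : ∀ i : Fin n, p ^ n - p ^ (i : ℕ) ≠ 0 := fun i => by
    have := Nat.pow_lt_pow_right (a := p) (by omega) i.2
    omega
  haveI : Fact (Nat.Prime 2) := ⟨Nat.prime_two⟩
  have h1 : padicValNat 2 (∏ i : Fin n, (p ^ n - p ^ (i : ℕ))) =
      ∑ i : Fin n, padicValNat 2 (p ^ (n - 1 - (i : ℕ) + 1) - 1) := by
    rw [v_prod _ _ (fun i _ => hne i)]
    apply Finset.sum_congr rfl
    intro i _
    have h2 : p ^ n - p ^ (i : ℕ) = p ^ (i : ℕ) * (p ^ (n - 1 - (i : ℕ) + 1) - 1) := by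
      have hi := i.2
      rw [Nat.mul_sub, ← pow_add, mul_one]
      congr 2; omega
    rw [h2, padicValNat.mul (pow_ne_zero _ (by omega)) (pow_sub_ne hp _)]
    have : padicValNat 2 (p ^ (i : ℕ)) = 0 := by
      apply padicValNat.eq_zero_of_not_dvd
      intro hd
      exact (Nat.not_even_iff_odd.2 (hodd.pow)) (even_iff_two_dvd.2 hd)
    omega
  rw [h1, F, v_prod _ _ (fun j _ => pow_sub_ne hp j),
    Fin.sum_univ_eq_sum_range (fun i => padicValNat 2 (p ^ (n - 1 - i + 1) - 1)) n,
    Finset.sum_range_reflect (fun j => padicValNat 2 (p ^ (j + 1) - 1)) n]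

end arith

/-! ## The linear case -/

theorem linear_case {Q : Type u} [CommGroup Q] [Finite Q] {p : ℕ}
    [hp : Fact p.Prime] (hp2 : p ≠ 2) [Module (ZMod p) (Additive Q)] (S : Subgroup (MulAut Q))
    (hS : IsPGroup 2 S) : Nat.card S ≤ Nat.card Q ^ 2 := by
  haveI : Finite (Additive Q) := inferInstanceAs (Finite Q)
  haveI : Module.Finite (ZMod p) (Additive Q) := Module.Finite.of_finite
  have h3 : 3 ≤ p := by
    have := hp.out.two_le
    omega
  have hodd : Odd p := hp.out.odd_of_ne_two hp2
  obtain ⟨n, hn⟩ : ∃ n, Module.finrank (ZMod p) (Additive Q) = n := ⟨_, rfl⟩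
  have b := Module.finBasisOfFinrankEq (ZMod p) (Additive Q) hn
  have hcard : Nat.card Q = p ^ n := by
    have h : Nat.card (Additive Q) = Nat.card (ZMod p) ^ Module.finrank (ZMod p) (Additive Q) :=
      Module.natCard_eq_pow_finrank (K := ZMod p) (V := Additive Q)
    rw [Nat.card_zmod, hn] at h
    exact h
  let φ : MulAut Q →* Module.End (ZMod p) (Additive Q) :=
    { toFun := fun f => AddMonoidHom.toZModLinearMap p (MonoidHom.toAdditive f.toMonoidHom)
      map_one' := by ext x; rfl
      map_mul' := fun f g => by ext x; rfl }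
  let ψ : MulAut Q →* GL (Fin n) (ZMod p) :=
    (Units.mapEquiv (LinearMap.toMatrixAlgEquiv b).toMulEquiv).toMonoidHom.comp φ.toHomUnits
  have hinj : Function.Injective ψ := by
    intro f g hfg
    have h1 : φ.toHomUnits f = φ.toHomUnits g :=
      (Units.mapEquiv (LinearMap.toMatrixAlgEquiv b).toMulEquiv).injective hfg
    have h2 : φ f = φ g := congrArg Units.val h1
    ext x
    have h3 := LinearMap.congr_fun h2 (Additive.ofMul x)
    exact Additive.ofMul.injective h3
  have hdvd : Nat.card S ∣ Nat.card (GL (Fin n) (ZMod p)) :=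
    Subgroup.card_dvd_of_injective (ψ.comp S.subtype) (hinj.comp S.subtype_injective)
  rw [Matrix.card_GL_field, ZMod.card] at hdvd
  obtain ⟨k, hk⟩ := IsPGroup.iff_card.1 hS
  haveI : Fact (Nat.Prime 2) := ⟨Nat.prime_two⟩
  rw [hk] at hdvd ⊢
  have hne : (∏ i : Fin n, (p ^ n - p ^ (i : ℕ))) ≠ 0 := by
    rw [Finset.prod_ne_zero_iff]
    intro i _
    have := Nat.pow_lt_pow_right (a := p) (by omega) i.2
    omega
  have hle : k ≤ padicValNat 2 (F p n) := by
    rw [← v_GL h3 hodd]
    exact (padicValNat_dvd_iff_le hne).1 hdvd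
  calc 2 ^ k ≤ 2 ^ padicValNat 2 (F p n) := Nat.pow_le_pow_right (by norm_num) hle
    _ ≤ (p ^ n) ^ 2 := bound h3 hodd n
    _ = Nat.card Q ^ 2 := by rw [hcard]

/-! ## Restriction and quotient of automorphisms -/

section maps

variable {Q : Type u} [Group Q] (M : Subgroup Q) [hM : M.Characteristic]

theorem mem_iff (f : MulAut Q) (x : Q) : f x ∈ M ↔ x ∈ M := by
  have := hM.fixed f
  conv_rhs => rw [← this]
  rfl

/-- restriction to a characteristic subgroup -/
def res : MulAut Q →* MulAut M where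
  toFun f :=
    { toFun := fun x => ⟨f (x : Q), (mem_iff M f x).2 x.2⟩
      invFun := fun x => ⟨f⁻¹ (x : Q), (mem_iff M f⁻¹ x).2 x.2⟩
      left_inv := fun x => Subtype.ext (MulAut.inv_apply_self Q f x)
      right_inv := fun x => Subtype.ext (MulAut.apply_inv_self Q f x)
      map_mul' := fun x y => Subtype.ext (map_mul f (x : Q) (y : Q)) }
  map_one' := by
    apply MulEquiv.ext; intro x; rfl
  map_mul' f g := by
    apply MulEquiv.ext; intro x; rfl

/-- the action on the quotient by a characteristic subgroup -/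
def quo : MulAut Q →* MulAut (Q ⧸ M) where
  toFun f :=
    { toFun := QuotientGroup.map M M f.toMonoidHom (fun x hx => (mem_iff M f x).2 hx)
      invFun := QuotientGroup.map M M (f⁻¹ : MulAut Q).toMonoidHom (fun x hx => (mem_iff M f⁻¹ x).2 hx)
      left_inv := fun x => by
        induction x using QuotientGroup.induction_on with
        | H x => exact congrArg _ (MulAut.inv_apply_self Q f x)
      right_inv := fun x => by
        induction x using QuotientGroup.induction_on with
        | H x => exact congrArg _ (MulAut.apply_inv_self Q f x)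
      map_mul' := fun x y => map_mul _ x y }
  map_one' := by
    ext x
    induction x using QuotientGroup.induction_on with
    | H x => rfl
  map_mul' f g := by
    ext x
    induction x using QuotientGroup.induction_on with
    | H x => rfl

end maps

theorem aux (N : ℕ) : ∀ (Q : Type u) [Group Q] [Finite Q], Nat.card Q = N → Group.IsNilpotent Q →
    Odd (Nat.card Q) → ∀ S : Subgroup (MulAut Q), IsPGroup 2 S → Nat.card S ≤ Nat.card Q ^ 2 := by
  induction N using Nat.strong_induction_on with
  | _ N ih =>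
  intro Q _ _ hN hnil hodd S hS
  by_cases hM : ∃ M : Subgroup Q, M.Characteristic ∧ M ≠ ⊥ ∧ M ≠ ⊤
  · obtain ⟨M, hMc, hM1, hM2⟩ := hM
    haveI := hMc
    have hc := Subgroup.card_eq_card_quotient_mul_card_subgroup M
    have hMcard : 1 < Nat.card M := by
      have := (Subgroup.one_lt_card_iff_ne_bot M).2 hM1
      exact this
    have hQcard : 1 < Nat.card (Q ⧸ M) := by
      have : M.index ≠ 1 := fun h => hM2 (Subgroup.index_eq_one.1 h)
      have h0 : Nat.card (Q ⧸ M) = M.index := rfl
      have h1 : Nat.card (Q ⧸ M) ≠ 0 := Nat.card_pos.ne'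
      omega
    have hlt1 : Nat.card M < N := by rw [← hN, hc]; nlinarith
    have hlt2 : Nat.card (Q ⧸ M) < N := by rw [← hN, hc]; nlinarith
    have hodd' : Odd (Nat.card (Q ⧸ M)) ∧ Odd (Nat.card M) := by
      rw [hc] at hodd; exact Nat.odd_mul.1 hodd
    have i1 := ih _ hlt1 M rfl inferInstance hodd'.2 (S.map (res M))
      (IsPGroup.map hS (res M))
    have i2 := ih _ hlt2 (Q ⧸ M) rfl inferInstance hodd'.1 (S.map (quo M))
      (IsPGroup.map hS (quo M))
    haveI : Finite (MulAut M) := inferInstance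
    haveI : Finite (MulAut (Q ⧸ M)) := inferInstance
    let Φ : S → (S.map (res M)) × (S.map (quo M)) := fun s =>
      (⟨res M s, Subgroup.mem_map_of_mem _ s.2⟩, ⟨quo M s, Subgroup.mem_map_of_mem _ s.2⟩)
    have key : ∀ s ∈ S, res M s = 1 → quo M s = 1 → s = 1 := by
      intro s hs h1 h2
      obtain ⟨k, hk⟩ := hS ⟨s, hs⟩
      have hk' : s ^ 2 ^ k = 1 := congrArg Subtype.val hk
      ext x
      have hm : x⁻¹ * s x ∈ M := by
        have := DFunLike.congr_fun h2 (QuotientGroup.mk x)
        have h3 : (QuotientGroup.mk (s x) : Q ⧸ M) = QuotientGroup.mk x := this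
        exact QuotientGroup.eq.1 h3.symm
      have hfix : ∀ m ∈ M, s m = m := fun m hm =>
        congrArg Subtype.val (DFunLike.congr_fun h1 (⟨m, hm⟩ : M))
      obtain ⟨m, hmd⟩ : ∃ m, x⁻¹ * s x = m := ⟨_, rfl⟩
      rw [hmd] at hm
      have hsx : s x = x * m := by rw [← hmd]; group
      have hpow : ∀ j : ℕ, (s ^ j) x = x * m ^ j := by
        intro j
        induction j with
        | zero => simp
        | succ j ihj =>
          rw [pow_succ', MulAut.mul_apply, ihj, map_mul, hsx, hfix _ (M.pow_mem hm j), mul_assoc,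
            ← pow_succ']
      have h4 := hpow (2 ^ k)
      rw [hk', MulAut.one_apply] at h4
      have h5 : m ^ 2 ^ k = 1 := by
        have := h4.symm
        exact mul_eq_left.1 this
      have h6 : orderOf m ∣ 2 ^ k := orderOf_dvd_of_pow_eq_one h5
      have h7 : orderOf m ∣ Nat.card Q := orderOf_dvd_natCard m
      have h8 : Nat.Coprime (2 ^ k) (Nat.card Q) :=
        Nat.Coprime.pow_left k (Nat.coprime_two_left.2 hodd)
      have h9 : orderOf m = 1 := Nat.eq_one_of_dvd_coprimes h8 h6 h7
      rw [orderOf_eq_one_iff] at h9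
      rw [hsx, h9, mul_one]; rfl
    have hΦ : Function.Injective Φ := by
      intro s t hst
      have h1 : res M s = res M t := congrArg (fun z => (z.1 : MulAut M)) hst
      have h2 : quo M s = quo M t := congrArg (fun z => (z.2 : MulAut (Q ⧸ M))) hst
      have h3 := key ((s : MulAut Q)⁻¹ * (t : MulAut Q)) (S.mul_mem (S.inv_mem s.2) t.2)
        (by rw [map_mul, map_inv, h1, inv_mul_cancel]) (by rw [map_mul, map_inv, h2, inv_mul_cancel])
      exact Subtype.ext (inv_mul_eq_one.1 h3)
    calc Nat.card S ≤ Nat.card ((S.map (res M)) × (S.map (quo M))) :=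
          Nat.card_le_card_of_injective Φ hΦ
      _ = Nat.card (S.map (res M)) * Nat.card (S.map (quo M)) := Nat.card_prod _ _
      _ ≤ Nat.card M ^ 2 * Nat.card (Q ⧸ M) ^ 2 := Nat.mul_le_mul i1 i2
      _ = Nat.card Q ^ 2 := by rw [hc]; ring
  · push Not at hM
    rcases subsingleton_or_nontrivial Q with hs | hs
    · haveI : Subsingleton (MulAut Q) := ⟨fun f g => by ext x; exact Subsingleton.elim _ _⟩
      have h1 : Nat.card S ≤ 1 := by
        rw [Nat.card_eq_one_iff_unique.2 ⟨inferInstance, inferInstance⟩]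
      have h2 : 1 ≤ Nat.card Q := Nat.card_pos
      calc Nat.card S ≤ 1 := h1
        _ ≤ Nat.card Q ^ 2 := Nat.one_le_pow _ _ h2
    · have hZ : Subgroup.center Q ≠ ⊥ := by
        haveI := hnil
        exact Group.IsNilpotent.center_ne_bot Q
      have hZt : Subgroup.center Q = ⊤ := hM _ inferInstance hZ
      have hc : ∀ x y : Q, x * y = y * x := fun x y => by
        have hx : x ∈ Subgroup.center Q := hZt ▸ Subgroup.mem_top x
        exact (Subgroup.mem_center_iff.1 hx y).symm
      have hQ1 : Nat.card Q ≠ 1 := (Finite.one_lt_card (α := Q)).ne'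
      set p := (Nat.card Q).minFac with hpdef
      haveI hp : Fact p.Prime := ⟨Nat.minFac_prime hQ1⟩
      have hp2 : p ≠ 2 := by
        intro h
        have : 2 ∣ Nat.card Q := h ▸ Nat.minFac_dvd _
        exact (Nat.not_even_iff_odd.2 hodd) (even_iff_two_dvd.2 this)
      let M : Subgroup Q :=
        { carrier := {x | x ^ p = 1}
          one_mem' := one_pow p
          mul_mem' := fun {a b} ha hb => by
            have hab : Commute a b := hc a b
            change (a * b) ^ p = 1
            rw [hab.mul_pow, show a ^ p = 1 from ha, show b ^ p = 1 from hb, one_mul]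
          inv_mem' := fun {a} ha => by
            change (a⁻¹) ^ p = 1
            rw [inv_pow, show a ^ p = 1 from ha, inv_one] }
      haveI : M.Characteristic := ⟨fun f => by
        ext x
        change (f x) ^ p = 1 ↔ x ^ p = 1
        rw [← map_pow]
        exact f.map_eq_one_iff⟩
      have hMb : M ≠ ⊥ := by
        intro h
        haveI : Fintype Q := Fintype.ofFinite Q
        obtain ⟨x, hx⟩ := exists_prime_orderOf_dvd_card' (G := Q) p (Nat.minFac_dvd _)
        have hxM : x ∈ M := by
          change x ^ p = 1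
          rw [← hx]; exact pow_orderOf_eq_one x
        rw [h, Subgroup.mem_bot] at hxM
        rw [hxM, orderOf_one] at hx
        exact hp.out.one_lt.ne hx
      have hMt : M = ⊤ := hM M inferInstance hMb
      have hpow : ∀ x : Q, x ^ p = 1 := fun x => by
        have hx : x ∈ M := hMt ▸ Subgroup.mem_top x
        exact hx
      let C : CommGroup Q := { ‹Group Q› with mul_comm := hc }
      let Mo : Module (ZMod p) (Additive Q) := AddCommGroup.zmodModule (n := p) (fun x => by
        apply Additive.toMul.injective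
        exact hpow x.toMul)
      exact @linear_case Q C _ p hp hp2 Mo S hS

/-- A `2`-group of automorphisms of a nilpotent group `Q` of odd order has order at most `|Q|²`. -/
theorem two_group_card_le {Q : Type*} [Group Q] [Finite Q] (hnil : Group.IsNilpotent Q)
    (hodd : Odd (Nat.card Q)) (S : Subgroup (MulAut Q)) (hS : IsPGroup 2 S) :
    Nat.card S ≤ Nat.card Q ^ 2 :=
  aux _ Q rfl hnil hodd S hS

end Cfsg.Agent.H446.TwoAutNil
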